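import Cfsg.Agent.H90.RI3

/-! Abstract systems of transvections (centre, axis) for a bilinear pairing. -/

set_option autoImplicit false

namespace Cfsg.Agent.H90
open Relation Module

variable {F X Y : Type*} [Field F] [AddCommGroup X] [Module F X] [AddCommGroup Y] [Module F Y]
variable {B : X →ₗ[F] Y →ₗ[F] F} {Γ : X → Y → Prop} {u v w x y z : X} {φ ψ χ ξ η ζ : Y} {p q : X × Y}

structure TS (B : X →ₗ[F] Y →ₗ[F] F) (Γ : X → Y → Prop) : Prop where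
  zero : ∀ {v φ}, Γ v φ → B v φ = 0
  zl : ∀ φ, Γ 0 φ
  zr : ∀ v, Γ v 0
  sml : ∀ {v φ} (a : F), Γ v φ → Γ (a • v) φ
  smr : ∀ {v φ} (a : F), Γ v φ → Γ v (a • φ)
  addl : ∀ {v w φ}, Γ v φ → Γ w φ → Γ (v + w) φ
  addr : ∀ {v φ ψ}, Γ v φ → Γ v ψ → Γ v (φ + ψ)
  conj : ∀ {v φ w ψ}, Γ v φ → Γ w ψ → Γ (v + B v ψ • w) (φ - B w φ • ψ)
  opp : ∀ {v φ}, Γ v φ → v ≠ 0 → φ ≠ 0 → ∃ w ψ, Γ w ψ ∧ B w φ ≠ 0 ∧ B v ψ ≠ 0

def Op (B : X →ₗ[F] Y →ₗ[F] F) (Γ : X → Y → Prop) (p q : X × Y) : Prop :=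
  Γ p.1 p.2 ∧ Γ q.1 q.2 ∧ B q.1 p.2 ≠ 0 ∧ B p.1 q.2 ≠ 0

def ND (Γ : X → Y → Prop) (p : X × Y) : Prop := Γ p.1 p.2 ∧ p.1 ≠ 0 ∧ p.2 ≠ 0

def TConn (B : X →ₗ[F] Y →ₗ[F] F) (Γ : X → Y → Prop) : Prop := ∀ p q, ND Γ p → ND Γ q → ReflTransGen (Op B Γ) p q

theorem Op.symm (h : Op B Γ p q) : Op B Γ q p := ⟨h.2.1, h.1, h.2.2.2, h.2.2.1⟩

theorem ne_l (h : B v φ ≠ 0) : v ≠ 0 := by rintro rfl; simp at h
theorem ne_r (h : B v φ ≠ 0) : φ ≠ 0 := by rintro rfl; simp at h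

theorem Op.nd (h : Op B Γ p q) : ND Γ q := ⟨h.2.1, ne_l h.2.2.1, ne_r h.2.2.2⟩

theorem TS.flip (h : TS B Γ) : TS B.flip fun φ v => Γ v φ :=
  ⟨h.zero, h.zr, h.zl, h.smr, h.sml, h.addr, h.addl, fun {φ v ψ w} h1 h2 => by
    simpa [sub_eq_add_neg] using h.conj h1 (h.sml (-1) h2),
    fun h1 h2 h3 => let ⟨w, ψ, h4, h5, h6⟩ := h.opp h1 h3 h2; ⟨ψ, w, h4, h6, h5⟩⟩

theorem rtg_flip (h : ReflTransGen (Op B Γ) p q) : ReflTransGen (Op B.flip fun φ v => Γ v φ) p.swap q.swap :=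
  h.lift Prod.swap fun _ _ o => ⟨o.1, o.2.1, o.2.2.2, o.2.2.1⟩

theorem TConn.flip (h : TConn B Γ) : TConn B.flip fun φ v => Γ v φ := fun p q hp hq =>
  rtg_flip (h p.swap q.swap ⟨hp.1, hp.2.2, hp.2.1⟩ ⟨hq.1, hq.2.2, hq.2.1⟩)

theorem TS.subr (h : TS B Γ) (h1 : Γ v φ) (h2 : Γ v ψ) (c : F) : Γ v (φ - c • ψ) := by
  simpa [sub_eq_add_neg] using h.addr h1 (h.smr (-c) h2)

theorem TS.one_dir (h : TS B Γ) (h1 : Γ v φ) (h2 : Γ w ψ) (e1 : B w φ ≠ 0) (e2 : B v ψ = 0) : Γ v ψ := by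
  have h3 := h.conj h1 h2
  rw [e2, zero_smul, add_zero] at h3
  simpa [smul_smul, inv_mul_cancel₀ e1] using h.smr (B w φ)⁻¹ (h.subr h1 h3 1)

theorem TS.same_center (h : TS B Γ) (h1 : Γ v φ) (h2 : Γ v ψ) (hv : v ≠ 0) (hφ : φ ≠ 0) (hψ : ψ ≠ 0) :
    ReflTransGen (Op B Γ) (v, φ) (v, ψ) := by
  obtain ⟨x, ξ, h3, e1, e2⟩ := h.opp h1 hv hφ
  obtain ⟨y, η, h4, e3, e4⟩ := h.opp h2 hv hψ
  have a1 : Op B Γ (v, φ) (x, ξ) := ⟨h1, h3, e1, e2⟩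
  have a2 : Op B Γ (y, η) (v, ψ) := ⟨h4, h2, e4, e3⟩
  by_cases e5 : B x ψ = 0
  · by_cases e6 : B y φ = 0
    · exact .head a1 (.head (b := (v, φ + ψ)) ⟨h3, h.addr h1 h2, e2, by simpa [e5]⟩
        (.head ⟨h.addr h1 h2, h4, by simpa [e6], e4⟩ (.single a2)))
    · exact .head ⟨h1, h4, e6, e4⟩ (.single a2)
  · exact .head a1 (.single ⟨h3, h2, e2, e5⟩)

theorem TS.same_axis (h : TS B Γ) (h1 : Γ v φ) (h2 : Γ w φ) (hφ : φ ≠ 0) (hv : v ≠ 0) (hw : w ≠ 0) :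
    ReflTransGen (Op B Γ) (v, φ) (w, φ) := rtg_flip (h.flip.same_center h1 h2 hφ hv hw)

theorem TS.conn_of_ne (h : TS B Γ) (hp : ND Γ p) (hq : ND Γ q) (e : B q.1 p.2 ≠ 0) : ReflTransGen (Op B Γ) p q := by
  by_cases e2 : B p.1 q.2 = 0
  · have := h.one_dir hp.1 hq.1 e e2
    exact (h.same_center hp.1 this hp.2.1 hp.2.2 hq.2.2).trans (h.same_axis this hq.1 hq.2.2 hp.2.1 hq.2.1)
  · exact .single ⟨hp.1, hq.1, e, e2⟩

/-- the component of `p` -/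
def Cmp (B : X →ₗ[F] Y →ₗ[F] F) (Γ : X → Y → Prop) (p : X × Y) (v : X) (φ : Y) : Prop :=
  Γ v φ ∧ (v ≠ 0 → φ ≠ 0 → ReflTransGen (Op B Γ) p (v, φ))

theorem TS.cmp_center (h : TS B Γ) (h1 : Cmp B Γ p v φ) (hφ : φ ≠ 0) (h2 : Γ v ψ) : Cmp B Γ p v ψ :=
  ⟨h2, fun hv hψ => (h1.2 hv hφ).trans (h.same_center h1.1 h2 hv hφ hψ)⟩

theorem TS.cmp_axis (h : TS B Γ) (h1 : Cmp B Γ p v φ) (hv : v ≠ 0) (h2 : Γ w φ) : Cmp B Γ p w φ :=
  ⟨h2, fun hw hφ => (h1.2 hv hφ).trans (h.same_axis h1.1 h2 hφ hv hw)⟩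

theorem TS.cmp_conj (h : TS B Γ) (h1 : Cmp B Γ p v φ) (h2 : Γ w ψ) : Cmp B Γ p (v + B v ψ • w) (φ - B w φ • ψ) := by
  have h3 := h.conj h1.1 h2
  refine ⟨h3, fun a b => ?_⟩
  have hv : v ≠ 0 := by rintro rfl; simp at a
  have hφ : φ ≠ 0 := by rintro rfl; simp at b
  by_cases e1 : B v ψ = 0
  · rw [e1, zero_smul, add_zero] at h3 a ⊢
    exact (h.cmp_center h1 hφ h3).2 a b
  by_cases e2 : B w φ = 0
  · rw [e2, zero_smul, sub_zero] at h3 b ⊢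
    exact (h.cmp_axis h1 hv h3).2 a b
  exact ((h1.2 hv hφ).tail (c := (w, ψ)) ⟨h1.1, h2, e2, e1⟩).tail ⟨h2, h3, by simpa [h.zero h2], by simpa [h.zero h2]⟩

theorem TS.cmp (h : TS B Γ) (p : X × Y) : TS B (Cmp B Γ p) := by
  refine ⟨fun h1 => h.zero h1.1, fun φ => ⟨h.zl φ, fun e => absurd rfl e⟩, fun v => ⟨h.zr v, fun _ e => absurd rfl e⟩,
    fun {v φ} a h1 => ?_, fun {v φ} a h1 => ?_, fun {v w φ} h1 h2 => ?_, fun {v φ ψ} h1 h2 => ?_,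
    fun h1 h2 => h.cmp_conj h1 h2.1, fun h1 hv hφ => ?_⟩
  · by_cases hv : v = 0
    · simpa [hv] using h1
    · exact h.cmp_axis h1 hv (h.sml a h1.1)
  · by_cases hv : φ = 0
    · simpa [hv] using h1
    · exact h.cmp_center h1 hv (h.smr a h1.1)
  · by_cases hv : v = 0
    · simpa [hv] using h2
    · exact h.cmp_axis h1 hv (h.addl h1.1 h2.1)
  · by_cases hv : φ = 0
    · simpa [hv] using h2
    · exact h.cmp_center h1 hv (h.addr h1.1 h2.1)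
  · obtain ⟨w, ψ, h2, e1, e2⟩ := h.opp h1.1 hv hφ
    exact ⟨w, ψ, ⟨h2, fun _ _ => (h1.2 hv hφ).tail ⟨h1.1, h2, e1, e2⟩⟩, e1, e2⟩

theorem cmp_conn (p : X × Y) : TConn B (Cmp B Γ p) := by
  have : ∀ q, ReflTransGen (Op B Γ) p q → ReflTransGen (Op B (Cmp B Γ p)) p q := fun q hq => by
    induction hq with
    | refl => exact .refl
    | tail h1 h2 ih => exact ih.tail ⟨⟨h2.1, fun _ _ => h1⟩, ⟨h2.2.1, fun _ _ => h1.tail h2⟩, h2.2.2⟩
  exact fun q r hq hr => (rtg_symm Op.symm (this q (hq.1.2 hq.2.1 hq.2.2))).trans (this r (hr.1.2 hr.2.1 hr.2.2))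

theorem TS.cmp_orth (h : TS B Γ) (hpq : ¬ ReflTransGen (Op B Γ) p q) (h1 : Cmp B Γ p v φ) (h2 : Cmp B Γ q w ψ)
    (hv : v ≠ 0) (hψ : ψ ≠ 0) : B w φ = 0 := by
  by_contra e
  exact hpq (((h1.2 hv (ne_r e)).trans (h.conn_of_ne (q := (w, ψ)) ⟨h1.1, hv, ne_r e⟩ ⟨h2.1, ne_l e, hψ⟩ e)).trans
    (rtg_symm Op.symm (h2.2 (ne_l e) hψ)))

/-! ### The linear case -/

/-- axes with centre `v` -/
def TS.ax (h : TS B Γ) (v : X) : Submodule F Y where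
  carrier := {φ | Γ v φ}
  add_mem' := h.addr
  zero_mem' := h.zr v
  smul_mem' a _ := h.smr a

theorem TS.finrank_le [FiniteDimensional F Y] (h : TS B Γ) (o : Op B Γ p q) :
    finrank F (h.ax p.1) ≤ finrank F (h.ax q.1) := by
  have inj : ∀ {x ξ}, B x ξ = 0 → Function.Injective (LinearMap.id - (B x).smulRight ξ : Y →ₗ[F] Y) := fun {x ξ} e =>
    (injective_iff_map_eq_zero _).2 fun a ha => by
      have h1 : a = B x a • ξ := sub_eq_zero.1 ha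
      rw [h1, h1, map_smul, e]; simp
  obtain ⟨h1, h2, e1, e2⟩ := o
  have h3 := h.sml (-(B p.1 q.2 * B q.1 p.2)⁻¹) h1
  refine LinearMap.finrank_le_finrank_of_injective (f := (((LinearMap.id - (B (-(B p.1 q.2 * B q.1 p.2)⁻¹ • p.1)).smulRight p.2) ∘ₗ
    (LinearMap.id - (B q.1).smulRight q.2)).restrict (fun φ hφ => ?_) : h.ax p.1 →ₗ[F] h.ax q.1))
    fun a b e => Subtype.ext (inj (h.zero h2) (inj (h.zero h3) (by simpa using congrArg Subtype.val e)))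
  have := h.sml (B p.1 q.2)⁻¹ (h.conj (h.conj hφ h2) h3)
  rwa [show (B p.1 q.2)⁻¹ • (p.1 + B p.1 q.2 • q.1 + B (p.1 + B p.1 q.2 • q.1) p.2 • -(B p.1 q.2 * B q.1 p.2)⁻¹ • p.1) = q.1 by
    simp only [map_add, map_smul, LinearMap.add_apply, LinearMap.smul_apply, h.zero h1, smul_eq_mul]
    match_scalars <;> field_simp <;> ring] at this

theorem TS.finrank_eq [FiniteDimensional F Y] (h : TS B Γ) (hc : TConn B Γ) (hp : ND Γ p) (hq : ND Γ q) :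
    finrank F (h.ax p.1) = finrank F (h.ax q.1) := by
  have := hc p q hp hq
  clear hq
  induction this with
  | refl => rfl
  | tail _ h2 ih => exact ih.trans (le_antisymm (h.finrank_le h2) (h.finrank_le h2.symm))

def Cen (Γ : X → Y → Prop) (v : X) : Prop := ∃ φ, ND Γ (v, φ)

theorem TS.line (h : TS B Γ) (h1 : Γ u φ) (e : B w φ ≠ 0) (hw : Cen Γ w) (c : F) : Cen Γ (w + c • u) := by
  obtain ⟨ψ, h2, -, h3⟩ := hw
  have := h.conj h2 (h.sml (c * (B w φ)⁻¹) h1)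
  rw [smul_smul, mul_comm, inv_mul_cancel_right₀ e] at this
  refine ⟨_, this, ne_l (B := B) (φ := φ) (by simpa [h.zero h1]), fun e2 => ?_⟩
  have e3 := sub_eq_zero.1 e2
  have e4 := h.zero h2
  dsimp only at e3 e4 h3
  rw [e3, map_smul, smul_eq_mul, mul_eq_zero, or_iff_left e] at e4
  exact h3 (by rw [e3, e4, zero_smul])

theorem ne_or_ne (h2 : (2 : F) ≠ 0) {a : F} (ha : a ≠ 0) (b : F) : ∃ c : F, c ≠ 0 ∧ a + c * b ≠ 0 := by
  by_cases e : a + b = 0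
  · exact ⟨-1, by simp, fun e2 => mul_ne_zero h2 ha (by linear_combination e + e2)⟩
  · exact ⟨1, by simp, by simpa⟩

theorem TS.diam (h : TS B Γ) (hc : TConn B Γ) (h2 : (2 : F) ≠ 0) (hp : ND Γ p) (hq : ND Γ q) :
    ∃ z, Cen Γ z ∧ B z p.2 ≠ 0 ∧ B z q.2 ≠ 0 := by
  have := hc p q hp hq
  clear hq
  induction this with
  | refl =>
    obtain ⟨w, ψ, h3, e1, e2⟩ := h.opp hp.1 hp.2.1 hp.2.2
    exact ⟨w, ⟨ψ, h3, ne_l e1, ne_r e2⟩, e1, e1⟩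
  | @tail r s _ o ih =>
    obtain ⟨z, hz, e1, e2⟩ := ih
    by_cases e : B z s.2 = 0
    · obtain ⟨c, hc, e3⟩ := ne_or_ne h2 e1 (B r.1 p.2)
      exact ⟨_, h.line o.1 e2 hz c, by simpa, by simpa [e, hc] using o.2.2.2⟩
    · exact ⟨z, hz, e1, e⟩

section
variable [FiniteDimensional F Y] (h : TS B Γ) (hc : TConn B Γ)
include h hc

theorem TS.np_symm (h1 : Γ u φ) (hu : u ≠ 0) (e : B w φ ≠ 0) (hw : Cen Γ w) : ∃ ψ, Γ w ψ ∧ B u ψ ≠ 0 := by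
  by_contra hn
  push Not at hn
  obtain ⟨ψ, hψ⟩ := hw
  have : h.ax w = h.ax u := Submodule.eq_of_le_of_finrank_eq (fun ψ h2 => h.one_dir h1 h2 e (hn ψ h2))
    (h.finrank_eq hc hψ (q := (u, φ)) ⟨h1, hu, ne_r e⟩)
  exact e (h.zero (show φ ∈ h.ax w from this ▸ h1))

theorem TS.two_ax (hp : ND Γ p) (hq : ND Γ q) (e1 : B q.1 p.2 ≠ 0) (e2 : B p.1 q.2 = 0) (hu : Cen Γ u) (z : X) :
    ∃ χ, χ ≠ 0 ∧ Γ u χ ∧ B z χ = 0 := by
  obtain ⟨φ, hφ⟩ := hu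
  by_contra hn
  push Not at hn
  have h1 : finrank F (h.ax u) ≤ 1 := by
    rw [← finrank_self F]
    exact LinearMap.finrank_le_finrank_of_injective (f := (B z).domRestrict (h.ax u))
      ((injective_iff_map_eq_zero _).2 fun a ha => Subtype.ext (by_contra fun e => hn a e a.2 ha))
  rw [h.finrank_eq hc hφ hp, finrank_le_one_iff] at h1
  obtain ⟨a, ha⟩ := h1
  obtain ⟨c, e3⟩ := ha ⟨p.2, hp.1⟩
  obtain ⟨d, e4⟩ := ha ⟨q.2, h.one_dir hp.1 hq.1 e1 e2⟩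
  have e3 : c • a.1 = p.2 := congrArg Subtype.val e3
  have e4 : d • a.1 = q.2 := congrArg Subtype.val e4
  have e5 := h.zero hq.1
  rw [← e3, map_smul] at e1
  rw [← e4, map_smul, smul_eq_mul, mul_eq_zero, or_iff_left (right_ne_zero_of_mul e1)] at e5
  exact hq.2.2 (by rw [← e4, e5, zero_smul])

variable (h2 : (2 : F) ≠ 0) (h3 : ∀ u, Cen Γ u → ∀ z, ∃ χ, χ ≠ 0 ∧ Γ u χ ∧ B z χ = 0)
include h2 h3

theorem TS.ax_le (hu : Cen Γ u) (hw : Cen Γ w) (hn : ∀ φ, Γ u φ → B w φ = 0) (h1 : Γ u φ) : Γ w φ := by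
  have key : ∀ {y χ ψ φ}, Cen Γ y → Γ u χ → B y χ ≠ 0 → Γ w ψ → B y ψ ≠ 0 → Γ u φ → B y φ = 0 → Γ w φ :=
    fun hy a1 e1 a2 e2 a3 e3 => by
      obtain ⟨ζ, a4, e4⟩ := h.np_symm hc a1 hu.choose_spec.2.1 e1 hy
      exact h.one_dir a2 (h.one_dir a4 a3 e4 e3) e2 (hn _ a3)
  obtain ⟨z, hz, e1, e2⟩ := h.diam hc h2 hu.choose_spec hw.choose_spec
  obtain ⟨χ, e3, a1, e4⟩ := h3 u hu z
  have a2 := key hz hu.choose_spec.1 e1 hw.choose_spec.1 e2 a1 e4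
  obtain ⟨y, η, a3, e5, e6⟩ := h.opp a1 hu.choose_spec.2.1 e3
  simpa using h.addr (key ⟨η, a3, ne_l e5, ne_r e6⟩ a1 e5 a2 e5 (h.subr h1 a1 (B y φ / B y χ)) (by
    simp [div_mul_cancel₀ _ e5])) (h.smr (B y φ / B y χ) a2)

theorem TS.prop (hu : Cen Γ u) (hw : Cen Γ w) (hn : ∀ φ, Γ u φ → B w φ = 0) : ∃ c : F, w = c • u := by
  obtain ⟨χ, a1, hu0, e1⟩ := id hu
  obtain ⟨z, ζ, a2, e2, e3⟩ := h.opp a1 hu0 e1
  refine ⟨B w ζ / B u ζ, by_contra fun e => ?_⟩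
  have a3 := h.addl (h.ax_le hc h2 h3 hu hw hn a1) (h.sml (-(B w ζ / B u ζ)) a1)
  obtain ⟨ζ', a4, e4⟩ := h.np_symm hc a3 (by rwa [neg_smul, ← sub_eq_add_neg, sub_ne_zero]) e2
    ⟨ζ, a2, ne_l e2, ne_r e3⟩
  have e5 := hn _ (h.one_dir a1 (h.subr a4 a2 (B u ζ' / B u ζ)) e2 (by simp [div_mul_cancel₀ _ e3]))
  apply e4
  simp only [map_sub, map_smul, map_add, LinearMap.add_apply, LinearMap.smul_apply, smul_eq_mul] at e5 ⊢
  dsimp only at e3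
  field_simp at e5 ⊢
  linear_combination e5

theorem TS.cen_of_span (hx : x ∈ Submodule.span F {v | Cen Γ v}) : x = 0 ∨ Cen Γ x := by
  have sm : ∀ (c : F) {v}, Cen Γ v → c • v = 0 ∨ Cen Γ (c • v) := fun c v ⟨φ, h1⟩ =>
    or_iff_not_imp_left.2 fun e => ⟨φ, h.sml c h1.1, e, h1.2.2⟩
  induction hx using Submodule.span_induction with
  | mem x hx => exact Or.inr hx
  | zero => exact Or.inl rfl
  | smul c x _ ih => exact ih.elim (fun e => Or.inl (by rw [e, smul_zero])) (sm c)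
  | add u w _ _ hu hw =>
    rcases hu with rfl | hu
    · simpa using hw
    rcases hw with rfl | hw
    · simpa using Or.inr hu
    by_cases hn : ∀ φ, Γ u φ → B w φ = 0
    · obtain ⟨c, rfl⟩ := h.prop hc h2 h3 hu hw hn
      simpa [add_smul] using sm (1 + c) hu
    · push Not at hn
      obtain ⟨φ, h1, e⟩ := hn
      simpa [add_comm] using Or.inr (h.line h1 e hw 1)

end

/-! ### The symplectic case -/

theorem alt_all {Z : Type*} [AddCommGroup Z] [Module F Z] [Finite Z] (h2 : (2 : F) ≠ 0) (f : Z →ₗ[F] Z →ₗ[F] F)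
    (hf : ∀ p q, f p q = -f q p) (U : Z → Prop) (hs : ∀ p (a : F), U p → U (a • p))
    (fam : ∀ p q, U p → U q → f p q ≠ 0 → U (p + q))
    (hU : Submodule.span F {p | U p ∧ f p ≠ 0} = ⊤)
    (diam : ∀ p q, U p → f p ≠ 0 → U q → f q ≠ 0 → ∃ r, U r ∧ f p r ≠ 0 ∧ f q r ≠ 0) (p : Z) (hp : f p ≠ 0) : U p := by
  have f0 : ∀ p, f p p = 0 := fun p => (mul_eq_zero.1 (by linear_combination hf p p)).resolve_left h2
  have ex : ∀ p, f p ≠ 0 → ∃ r, U r ∧ f p r ≠ 0 := fun p hp => by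
    by_contra hn
    push Not at hn
    exact hp (LinearMap.ext_on hU fun r hr => hn r hr.1)
  have k1 : ∀ p q r, U p → U q → U r → f p q = 0 → f p r ≠ 0 → f q r ≠ 0 → f p r + f q r ≠ 0 → U (p + q) :=
    fun p q r h1 h3 h4 e1 e2 e3 e4 => by
      simpa [show r + p + q + -r = p + q by abel] using fam _ _ (fam _ _ (fam _ _ h4 h1 (by rwa [hf, neg_ne_zero])) h3 (by simpa [e1, hf r q])) (hs r (-1) h4)
        (by simp only [map_add, map_smul, LinearMap.add_apply, f0, zero_add]; simpa only [neg_smul, one_smul, neg_ne_zero])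
  have k2 : ∀ p q r, U p → U q → f q ≠ 0 → U r → f p q = 0 → f p r ≠ 0 → f q r = 0 → U (p + q) :=
    fun p q r h1 h3 h5 h4 e1 e2 e3 => by
      obtain ⟨z, h6, e4, e5⟩ := diam p q h1 (fun e => e2 (by simp [e])) h3 h5
      by_cases e6 : f p z + f q z = 0
      swap
      · exact k1 p q z h1 h3 h6 e1 e4 e5 e6
      obtain ⟨r, h4, e7, e3, e8⟩ : ∃ r', U r' ∧ f p r' = f p r ∧ f q r' = 0 ∧ f r' z ≠ 0 := by
        by_cases e : f r z = 0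
        · exact ⟨p + r, fam _ _ h1 h4 e2, by simp [f0], by simp [e3, hf q p, e1], by simpa [e]⟩
        · exact ⟨r, h4, rfl, e3, e⟩
      rw [← e7] at e2
      obtain ⟨c, hc, e9⟩ := ne_or_ne h2 e2 (f p z)
      exact k1 p q (r + c • z) h1 h3 (fam _ _ h4 (hs z c h6) (by simp [hc, e8])) e1 (by simpa) (by simp [e3, hc, e5])
        (by simp only [map_add, map_smul, smul_eq_mul, e3]; intro e; exact e2 (by linear_combination e - c * e6))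
  have two : ∀ p q, U p → f p ≠ 0 → U q → f q ≠ 0 → f (p + q) ≠ 0 → U (p + q) := fun p q h1 h3 h4 h5 h6 => by
    by_cases e : f p q = 0
    swap
    · exact fam p q h1 h4 e
    obtain ⟨r, h7, e1⟩ := ex _ h6
    rw [map_add, LinearMap.add_apply] at e1
    by_cases e2 : f q r = 0
    · exact k2 p q r h1 h4 h5 h7 e (by simpa [e2] using e1) e2
    by_cases e3 : f p r = 0
    · exact add_comm p q ▸ k2 q p r h4 h1 h3 h7 (by rw [hf, e, neg_zero]) e2 e3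
    · exact k1 p q r h1 h4 h7 e e3 e2 e1
  obtain ⟨u, hu, hu'⟩ : ∃ u, U u ∧ f u ≠ 0 := by
    obtain ⟨r, h1, e⟩ := ex p hp
    exact ⟨r, h1, fun e2 => e (by rw [hf, e2]; simp)⟩
  have : Finite (Submodule F Z) := Finite.of_injective _ SetLike.coe_injective
  obtain ⟨S, ⟨hS, huS⟩, hm⟩ := (Set.toFinite {S : Submodule F Z | (∀ s ∈ S, f s ≠ 0 → U s) ∧ u ∈ S}).exists_maximal
    ⟨Submodule.span F {u}, fun s hs1 _ => by
      obtain ⟨c, rfl⟩ := Submodule.mem_span_singleton.1 hs1; exact hs u c hu, Submodule.mem_span_singleton_self u⟩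
  refine hS p (eq_top_iff.1 (hU.symm.le.trans (Submodule.span_le.2 fun x hx => ?_) |> eq_top_iff.2) trivial) hp
  refine hm (y := S ⊔ Submodule.span F {x}) ⟨fun t ht ht' => ?_, Submodule.mem_sup_left huS⟩ le_sup_left
    (Submodule.mem_sup_right (Submodule.mem_span_singleton_self x))
  obtain ⟨s, hs1, _, hy, rfl⟩ := Submodule.mem_sup.1 ht
  obtain ⟨c, rfl⟩ := Submodule.mem_span_singleton.1 hy
  by_cases hc : c = 0
  · rw [hc, zero_smul, add_zero] at ht' ⊢; exact hS s hs1 ht'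
  have hx' : f (c • x) ≠ 0 := by simp [hc, hx.2]
  by_cases e : f s = 0
  swap
  · exact two _ _ (hS s hs1 e) e (hs x c hx.1) hx' ht'
  obtain ⟨a, ha, e1⟩ : ∃ a : F, a ≠ 0 ∧ f (c • x + a • u) ≠ 0 := by
    by_cases e1 : f (c • x + (1 : F) • u) = 0
    · refine ⟨-1, by simp, fun e2 => hx' (smul_right_injective _ h2 ?_)⟩
      simp only [map_add, map_smul] at e1 e2 ⊢
      linear_combination (norm := module) e1 + e2
    · exact ⟨1, by simp, e1⟩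
  have e2 : f (s - a • u) ≠ 0 := by simp [e, ha, hu']
  have := two _ _ (hS _ (S.sub_mem hs1 (S.smul_mem a huS)) e2) e2
    (two _ _ (hs x c hx.1) hx' (hs u a hu) (by simp [ha, hu']) e1) e1 (by simpa using ht')
  simpa using this

theorem TS.fam (h : TS B Γ) (hp : Γ p.1 p.2) (hq : Γ q.1 q.2) (e : B p.1 q.2 = -B q.1 p.2) (e1 : B p.1 q.2 ≠ 0) (a b : F) :
    Γ (a • p + b • q).1 (a • p + b • q).2 := by
  by_cases ha : a = 0
  · simpa [ha] using h.sml b (h.smr b hq)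
  have := h.sml a (h.smr a (h.conj hp (h.sml (b / a / B p.1 q.2) hq)))
  convert this using 1
  · simp only [Prod.fst_add, Prod.smul_fst]; match_scalars <;> field_simp
  · rw [e] at e1 ⊢
    simp only [Prod.snd_add, Prod.smul_snd, map_smul, LinearMap.smul_apply, smul_eq_mul]
    have := neg_ne_zero.1 e1
    match_scalars <;> field_simp

theorem TS.exists_theta [Finite X] [Finite Y] (h : TS B Γ) (hc : TConn B Γ) (h2 : (2 : F) ≠ 0)
    (hA : ∀ p q, ND Γ p → ND Γ q → B q.1 p.2 ≠ 0 → B p.1 q.2 ≠ 0) (hp : ND Γ p) :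
    ∃ Θ : Submodule F (X × Y), (∀ p ∈ Θ, ∀ q ∈ Θ, B p.1 q.2 = -B q.1 p.2) ∧
      (∀ q, ND Γ q → ∃ c : F, c ≠ 0 ∧ (q.1, c • q.2) ∈ Θ) ∧ Θ ≤ Submodule.span F {q | ND Γ q} ∧
      ∀ p ∈ Θ, (∃ q ∈ Θ, B p.1 q.2 ≠ 0) → Γ p.1 p.2 := by
  let N : Set (X × Y) := {q | ND Γ q ∧ B p.1 q.2 = -B q.1 p.2 ∧ (B q.1 p.2 ≠ 0 ∨ q = p)}
  have hpN : p ∈ N := ⟨hp, by simp [h.zero hp.1], Or.inr rfl⟩
  have alt0 : ∀ q ∈ N, ∀ r ∈ N, B q.1 r.2 = -B r.1 q.2 := by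
    rintro q ⟨h1, e1, e2 | rfl⟩ r ⟨h3, e3, e4 | rfl⟩
    · have e5 : B p.1 r.2 ≠ 0 := by rwa [e3, neg_ne_zero]
      have h4 := h.fam hp.1 h1.1 e1 (by rwa [e1, neg_ne_zero]) (-B q.1 r.2) (B p.1 r.2)
      have e6 : B r.1 (-B q.1 r.2 • p + B p.1 r.2 • q).2 = 0 := by
        by_contra e6
        exact hA _ r ⟨h4, ne_l (B := B) (φ := p.2) (by simp [h.zero hp.1, e2, e5]), ne_r e6⟩ h3 e6 (by simp; ring)
      simp only [Prod.snd_add, Prod.smul_snd, map_add, map_smul, smul_eq_mul, e3] at e6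
      exact mul_left_cancel₀ e4 (by linear_combination -e6)
    · rw [e1, neg_neg]
    · exact e3
    · exact e1
  have alt : ∀ q ∈ Submodule.span F N, ∀ r ∈ Submodule.span F N, B q.1 r.2 = -B r.1 q.2 := fun q hq r hr => by
    induction hq, hr using Submodule.span_induction₂ with
    | mem_mem q r hq hr => exact alt0 q hq r hr
    | zero_left => simp
    | zero_right => simp
    | add_left _ _ _ _ _ _ e1 e2 => simp [e1, e2, add_comm]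
    | add_right _ _ _ _ _ _ e1 e2 => simp [e1, e2, add_comm]
    | smul_left _ _ _ _ _ e1 => simp [e1]
    | smul_right _ _ _ _ _ e1 => simp [e1]
  have nrm : ∀ q, ND Γ q → ∃ c : F, c ≠ 0 ∧ (q.1, c • q.2) ∈ Submodule.span F N := fun q hq => by
    have := hc p q hp hq
    clear hq
    induction this with
    | refl => exact ⟨1, one_ne_zero, by simpa using Submodule.subset_span hpN⟩
    | @tail r s _ o ih =>
      obtain ⟨c, hc, h1⟩ := ih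
      have hs := o.nd
      have nd : ∀ c : F, c ≠ 0 → ND Γ (s.1, c • s.2) := fun c hc => ⟨h.smr c hs.1, hs.2.1, smul_ne_zero hc hs.2.2⟩
      by_cases e : B s.1 p.2 = 0
      swap
      · have e1 := hA p s hp hs e
        have e2 : -B s.1 p.2 / B p.1 s.2 ≠ 0 := by simp [e, e1]
        exact ⟨_, e2, Submodule.subset_span ⟨nd _ e2, by simp [div_mul_cancel₀ _ e1], Or.inl e⟩⟩
      have e1 : B p.1 s.2 = 0 := by_contra fun e1 => hA s p hs hp e1 e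
      obtain ⟨t, ht, e2⟩ : ∃ t ∈ N, B t.1 s.2 ≠ 0 := by
        by_contra hn
        push Not at hn
        have := Submodule.span_le.2 (show N ⊆ LinearMap.ker (B.flip s.2 ∘ₗ LinearMap.fst F X Y) from hn) h1
        exact o.2.2.2 this
      have e3 := hA s t hs ht.1 e2
      have e4 : -B s.1 t.2 / B t.1 s.2 ≠ 0 := by simp [e2, e3]
      have e5 := ht.2.2.resolve_right fun e => e2 (e ▸ e1)
      have h4 := h.fam (q := (s.1, (-B s.1 t.2 / B t.1 s.2) • s.2)) ht.1.1 (nd _ e4).1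
        (by simp [div_mul_cancel₀ _ e2]) (by simp [e2, e3]) 1 1
      rw [one_smul, one_smul] at h4
      refine ⟨_, e4, ?_⟩
      simpa using Submodule.sub_mem _ (Submodule.subset_span (s := N) ⟨⟨h4, ne_l (B := B) (φ := p.2) (by simpa [e]),
        ne_r (B := B) (v := p.1) (by simpa [e1, ht.2.1])⟩, by simp [e, e1, ht.2.1], Or.inl (by simpa [e])⟩)
        (Submodule.subset_span ht)
  refine ⟨_, alt, nrm, Submodule.span_mono fun q hq => hq.1, fun r hr ⟨q, hq, e⟩ => ?_⟩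
  let Θ := Submodule.span F N
  let f : Θ →ₗ[F] Θ →ₗ[F] F := B.compl₁₂ (LinearMap.fst F X Y ∘ₗ Θ.subtype) (LinearMap.snd F X Y ∘ₗ Θ.subtype)
  have hf : ∀ a b : Θ, f a b = B a.1.1 b.1.2 := fun _ _ => rfl
  have nd : ∀ a : Θ, Γ a.1.1 a.1.2 → f a ≠ 0 → ND Γ a.1 := fun a h1 e => by
    obtain ⟨b, e⟩ := DFunLike.ne_iff.1 e
    exact ⟨h1, ne_l e, ne_r (B := B) (v := b.1.1) (by rw [alt _ b.2 _ a.2, neg_ne_zero]; exact e)⟩
  have nd' : ∀ a : Θ, ND Γ a.1 → f a ≠ 0 := fun a h1 e => by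
    obtain ⟨w, ψ, h3, e1, e2⟩ := h.opp h1.1 h1.2.1 h1.2.2
    obtain ⟨c, hc, h4⟩ := nrm (w, ψ) ⟨h3, ne_l e1, ne_r e2⟩
    simpa [hf, hc, e2] using DFunLike.congr_fun e ⟨_, h4⟩
  refine alt_all h2 f (fun a b => alt _ a.2 _ b.2) (fun a => Γ a.1.1 a.1.2) (fun a c h1 => h.sml c (h.smr c h1))
    (fun a b h1 h3 e => by simpa using h.fam h1 h3 (alt _ a.2 _ b.2) e 1 1) ?_ (fun a b h1 e1 h3 e2 => ?_) ⟨r, hr⟩
    fun e1 => e (DFunLike.congr_fun e1 ⟨q, hq⟩)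
  · rw [eq_top_iff, ← Submodule.span_span_coe_preimage]
    exact Submodule.span_mono fun a ha => ⟨ha.1.1, nd' a ha.1⟩
  · obtain ⟨z, ⟨ζ, hz⟩, e3, e4⟩ := h.diam hc h2 (nd a h1 e1) (nd b h3 e2)
    obtain ⟨c, -, h4⟩ := nrm _ hz
    exact ⟨⟨_, h4⟩, h.smr c hz.1, by rwa [hf, alt _ a.2 _ h4, neg_ne_zero], by rwa [hf, alt _ b.2 _ h4, neg_ne_zero]⟩

end Cfsg.Agent.H90
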