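/-
Prime graphs: fibre products and coinduced modules keep the prime graph (for S3526).
-/
import Cfsg.Agent.H2.MinNormal
import Mathlib.GroupTheory.SemidirectProduct
import Mathlib.Algebra.Group.Shrink
import Mathlib.GroupTheory.Transfer

set_option autoImplicit false

namespace Cfsg.Agent.H90.Gk

open Subgroup

universe u

/-- adjacency in the prime graph -/
def Ad (G : Type*) [Group G] (p q : ℕ) : Prop := ∃ g : G, orderOf g = p * q

/-- same prime graph -/
structure SG (G H : Type*) [Group G] [Group H] : Prop where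
  v : ∀ p : ℕ, p.Prime → (p ∣ Nat.card G ↔ p ∣ Nat.card H)
  e : ∀ p q : ℕ, p.Prime → q.Prime → p ≠ q → (Ad G p q ↔ Ad H p q)

/-- a non-trivial normal subgroup whose primes are pairwise adjacent -/
def CN (G : Type*) [Group G] : Prop := ∃ M : Subgroup G, M.Normal ∧ M ≠ ⊥ ∧
  ∀ a ∈ M, ∀ b ∈ M, (orderOf a).Prime → (orderOf b).Prime → orderOf a ≠ orderOf b → Ad G (orderOf a) (orderOf b)

/-- the groups with the same prime graph have bounded order -/
def Bd (G : Type*) [Group G] : Prop := ∃ n : ℕ, ∀ (H : Type) [Group H] [Finite H], SG G H → Nat.card H ≤ n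

section

variable {G H K : Type*} [Group G] [Group H] [Group K] {p q : ℕ}

theorem SG.refl : SG G G := ⟨fun _ _ => Iff.rfl, fun _ _ _ _ _ => Iff.rfl⟩
theorem SG.trans (h : SG G H) (k : SG H K) : SG G K :=
  ⟨fun p hp => (h.v p hp).trans (k.v p hp), fun p q hp hq n => (h.e p q hp hq n).trans (k.e p q hp hq n)⟩

theorem Ad.symm (h : Ad G p q) : Ad G q p := by rwa [Ad, mul_comm]

theorem ad_of_dvd [Finite G] {g : G} (h : p * q ∣ orderOf g) : Ad G p q :=
  ⟨_, orderOf_pow_orderOf_div (orderOf_pos g).ne' h⟩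

theorem ad_of_comm [Finite G] {a b : G} (c : a * b = b * a) (h : (orderOf a).Coprime (orderOf b))
    (ha : p ∣ orderOf a) (hb : q ∣ orderOf b) : Ad G p q :=
  ad_of_dvd (g := a * b) (by
    rw [Commute.orderOf_mul_eq_mul_orderOf_of_coprime c h]; exact mul_dvd_mul ha hb)

theorem Ad.of_surj [Finite G] {f : G →* H} (hf : Function.Surjective f) (h : Ad H p q) : Ad G p q := by
  obtain ⟨y, hy⟩ := h
  obtain ⟨x, rfl⟩ := hf y
  exact ad_of_dvd (g := x) (hy ▸ orderOf_map_dvd f x)

theorem Ad.of_inj {f : G →* H} (hf : Function.Injective f) (h : Ad G p q) : Ad H p q := by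
  obtain ⟨x, hx⟩ := h
  exact ⟨f x, by rw [orderOf_injective f hf, hx]⟩

theorem SG.of_equiv [Finite G] (e : G ≃* H) : SG G H :=
  ⟨fun _ _ => by rw [Nat.card_congr e.toEquiv], fun _ _ _ _ _ =>
    ⟨Ad.of_inj (f := e.toMonoidHom) e.injective, Ad.of_surj (f := e.toMonoidHom) e.surjective⟩⟩

theorem ord_pow (hq : q.Prime) {g : G} (h : g ^ (p * q) = 1) (h1 : g ^ p ≠ 1) : orderOf (g ^ p) = q := by
  haveI := Fact.mk hq
  exact orderOf_eq_prime (by rw [← pow_mul, h]) h1

theorem ord_pq (hp : p.Prime) (hq : q.Prime) {g : G} (h : g ^ (p * q) = 1) (h1 : g ^ p ≠ 1) (h2 : g ^ q ≠ 1) :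
    orderOf g = p * q := by
  obtain ⟨a, b, ha, hb, e⟩ := (Nat.dvd_mul).1 (orderOf_dvd_of_pow_eq_one h)
  rcases (Nat.dvd_prime hp).1 ha with rfl | rfl
  · exact absurd (orderOf_dvd_iff_pow_eq_one.1 (by rw [← e, one_mul]; exact hb)) h2
  rcases (Nat.dvd_prime hq).1 hb with rfl | rfl
  · exact absurd (orderOf_dvd_iff_pow_eq_one.1 (by rw [← e, mul_one])) h1
  exact e.symm

theorem pow_ne (hp : p.Prime) (hq : q.Prime) {g : G} (h : orderOf g = p * q) : g ^ p ≠ 1 := by
  intro e
  have := orderOf_dvd_of_pow_eq_one e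
  rw [h] at this
  have h1 := Nat.le_of_dvd hp.pos this
  have h2 := hq.two_le
  have h3 := hp.pos
  nlinarith

theorem eq_one_of_pows (hp : p.Prime) (hq : q.Prime) (n : p ≠ q) {g : G} (h1 : g ^ p = 1) (h2 : g ^ q = 1) : g = 1 := by
  have := Nat.dvd_gcd (orderOf_dvd_of_pow_eq_one h1) (orderOf_dvd_of_pow_eq_one h2)
  rw [(Nat.coprime_primes hp hq).2 n, Nat.dvd_one] at this
  exact orderOf_eq_one_iff.1 this

end

/-- The fibre product. -/
theorem fp {G E : Type u} {Y : Type*} [Group G] [Group E] [Group Y] [Finite G] [Finite E] (φ : G →* Y) (ψ : E →* Y)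
    (s : ∀ g, ∃ e, ψ e = φ g) (v : ∀ p : ℕ, p.Prime → p ∣ Nat.card E → p ∣ Nat.card G)
    (e : ∀ p q : ℕ, p.Prime → q.Prime → p ≠ q → Ad E p q → Ad G p q)
    (k1 : ∀ a b, φ a = 1 → ψ b = 1 → (orderOf a).Prime → (orderOf b).Prime → orderOf a ≠ orderOf b →
      Ad G (orderOf a) (orderOf b))
    (k2 : ∀ a b, ψ a = 1 → ψ b = 1 → (orderOf a).Prime → (orderOf b).Prime → orderOf a ≠ orderOf b →
      Ad G (orderOf a) (orderOf b))
    (n : ∃ b, b ≠ 1 ∧ ψ b = 1) :
    ∃ (K : Type u) (_ : Group K) (_ : Finite K), SG G K ∧ CN K ∧ Nat.card G < Nat.card K := by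
  let K := (φ.comp (MonoidHom.fst G E)).eqLocus (ψ.comp (MonoidHom.snd G E))
  let π : K →* G := (MonoidHom.fst G E).comp K.subtype
  let σ : K →* E := (MonoidHom.snd G E).comp K.subtype
  have hc : ∀ z : K, φ (π z) = ψ (σ z) := fun z => z.2
  have h1 : ∀ z : K, π z = 1 → σ z = 1 → z = 1 := fun z a b => Subtype.ext (Prod.ext a b)
  have hπ : Function.Surjective π := fun g => by
    obtain ⟨x, hx⟩ := s g
    exact ⟨⟨(g, x), hx.symm⟩, rfl⟩
  obtain ⟨b, hb, hb1⟩ := n
  let z₀ : K := ⟨(1, b), by show φ 1 = ψ b; rw [map_one, hb1]⟩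
  have hz : z₀ ≠ 1 := fun h => hb (congrArg σ h)
  have ho : ∀ z : K, π z = 1 → orderOf (σ z) = orderOf z := fun z h =>
    Nat.dvd_antisymm (orderOf_map_dvd σ z) (orderOf_dvd_of_pow_eq_one
      (h1 _ (by rw [map_pow, h, one_pow]) (by rw [map_pow, pow_orderOf_eq_one])))
  have key : ∀ p q : ℕ, p.Prime → q.Prime → p ≠ q → ∀ z : K, orderOf z = p * q → π z ^ p = 1 → Ad G p q := by
    intro p q hp hq hn z hz h2
    have h0 : z ^ (p * q) = 1 := hz ▸ pow_orderOf_eq_one z
    have h3 : σ z ^ (p * q) = 1 := by rw [← map_pow, h0, map_one]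
    have h4 : σ z ^ p ≠ 1 := fun h => pow_ne hp hq hz (h1 _ (by rw [map_pow, h2]) (by rw [map_pow, h]))
    by_cases h5 : σ z ^ q = 1
    · have h6 : π z ^ q ≠ 1 := fun h => pow_ne hq hp (hz.trans (mul_comm _ _))
        (h1 _ (by rw [map_pow, h]) (by rw [map_pow, h5]))
      have h7 : φ (π z) = 1 := eq_one_of_pows hp hq hn (by rw [← map_pow, h2, map_one])
        (by rw [hc, ← map_pow, h5, map_one])
      have h8 : orderOf (π z ^ q) = p := ord_pow hp (by rw [mul_comm, ← map_pow, h0, map_one]) h6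
      have h9 : orderOf (σ z ^ p) = q := ord_pow hq h3 h4
      have := k1 (π z ^ q) (σ z ^ p) (by rw [map_pow, h7, one_pow]) (by rw [map_pow, ← hc, h7, one_pow])
      rw [h8, h9] at this
      exact this hp hq hn
    · exact e p q hp hq hn ⟨_, ord_pq hp hq h3 h4 h5⟩
  have hS : SG G K := by
    refine ⟨fun p hp => ⟨fun h => h.trans (card_dvd_of_surjective π hπ), fun h => ?_⟩,
      fun p q hp hq hn => ⟨Ad.of_surj hπ, ?_⟩⟩
    · have := h.trans (card_subgroup_dvd_card K)
      rw [Nat.card_prod] at this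
      exact ((Nat.Prime.dvd_mul hp).1 this).elim id (v p hp)
    · rintro ⟨z, hz⟩
      by_cases h2 : π z ^ p = 1
      · exact key p q hp hq hn z hz h2
      by_cases h3 : π z ^ q = 1
      · exact (key q p hq hp hn.symm z (hz.trans (mul_comm _ _)) h3).symm
      exact ⟨_, ord_pq hp hq (by rw [← map_pow, ← hz, pow_orderOf_eq_one, map_one]) h2 h3⟩
  refine ⟨K, inferInstance, inferInstance, hS, ⟨π.ker, inferInstance, fun h => hz ?_, ?_⟩, ?_⟩
  · exact (eq_bot_iff_forall _).1 h z₀ rfl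
  · intro a ha c hc' pa pc hn
    have ha' : π a = 1 := ha
    have hc'' : π c = 1 := hc'
    have := k2 (σ a) (σ c) (by rw [← hc, ha', map_one]) (by rw [← hc, hc'', map_one])
    rw [ho a ha', ho c hc''] at this
    exact (hS.e _ _ pa pc hn).1 (this pa pc hn)
  · haveI := Fintype.ofFinite K
    haveI := Fintype.ofFinite G
    rw [Nat.card_eq_fintype_card, Nat.card_eq_fintype_card]
    exact Fintype.card_lt_of_surjective_not_injective π hπ fun h => hz (h (by rw [map_one]; rfl))

theorem unb {G : Type u} [Group G] [Finite G] (hc : CN G) (n : ℕ) :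
    ∃ (K : Type u) (_ : Group K) (_ : Finite K), SG G K ∧ CN K ∧ n < Nat.card K := by
  induction n with
  | zero => exact ⟨G, inferInstance, inferInstance, SG.refl, hc, Nat.card_pos⟩
  | succ n ih =>
    obtain ⟨K, _, _, h1, ⟨M, hM, h2, h3⟩, h4⟩ := ih
    have k : ∀ a b : K, QuotientGroup.mk' M a = 1 → QuotientGroup.mk' M b = 1 → (orderOf a).Prime →
        (orderOf b).Prime → orderOf a ≠ orderOf b → Ad K (orderOf a) (orderOf b) := fun a b ha hb =>
      h3 a ((QuotientGroup.eq_one_iff a).1 ha) b ((QuotientGroup.eq_one_iff b).1 hb)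
    obtain ⟨⟨b, hb⟩, hb1⟩ := ne_bot_iff_exists_ne_one.1 h2
    obtain ⟨K', _, _, h5, h6, h7⟩ := fp (QuotientGroup.mk' M) (QuotientGroup.mk' M) (fun g => ⟨g, rfl⟩)
      (fun _ _ h => h) (fun _ _ _ _ _ h => h) k k
      ⟨b, fun h => hb1 (Subtype.ext h), (QuotientGroup.eq_one_iff b).2 hb⟩
    exact ⟨K', inferInstance, inferInstance, h1.trans h5, h6, by omega⟩

theorem not_bd {G : Type*} {K : Type u} [Group G] [Group K] [Finite K] (h : SG G K) (hc : CN K) : ¬ Bd G := by
  rintro ⟨n, hn⟩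
  obtain ⟨L, _, _, h1, -, h2⟩ := unb hc n
  have e : Shrink.{0} L ≃* L := Shrink.mulEquiv
  haveI : Finite (Shrink.{0} L) := Finite.of_equiv _ e.toEquiv.symm
  have := hn (Shrink.{0} L) ((h.trans h1).trans (SG.of_equiv e.symm))
  rw [Nat.card_congr e.toEquiv] at this
  omega

/-- An extension of an elementary abelian 2-group. -/
theorem ext2 {G E : Type u} [Group G] [Group E] [Finite G] [Finite E] (ψ : E →* G) (s : Function.Surjective ψ)
    (h2 : 2 ∣ Nat.card G) (sq : ∀ y, ψ y = 1 → y ^ 2 = 1) (n : ∃ b, b ≠ 1 ∧ ψ b = 1)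
    (hf : ∀ x y, ψ y = 1 → y ≠ 1 → x * y = y * x → ∀ p : ℕ, p.Prime → p ≠ 2 → orderOf (ψ x) = p → Ad G p 2) :
    ∃ (K : Type u) (_ : Group K) (_ : Finite K), SG G K ∧ CN K := by
  have o2 : ∀ y, ψ y = 1 → (orderOf y).Prime → orderOf y = 2 := fun y hy hp =>
    (Nat.prime_dvd_prime_iff_eq hp Nat.prime_two).1 (orderOf_dvd_of_pow_eq_one (sq y hy))
  have key : ∀ p q : ℕ, p.Prime → q.Prime → p ≠ q → ∀ z : E, orderOf z = p * q → ψ z ^ p = 1 → Ad G p q := by
    intro p q hp hq hn z hz h1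
    have h0 : z ^ (p * q) = 1 := hz ▸ pow_orderOf_eq_one z
    have h3 := pow_ne hp hq hz
    have h4 : ψ (z ^ p) = 1 := by rw [map_pow, h1]
    have h5 := ord_pow hq h0 h3
    have h6 : q = 2 := by rw [← h5]; exact o2 _ h4 (h5.symm ▸ hq)
    subst h6
    refine hf z (z ^ p) h4 h3 (Commute.self_pow z p) p hp hn ?_
    haveI := Fact.mk hp
    refine orderOf_eq_prime h1 fun h => pow_ne hq hp (hz.trans (mul_comm _ _)) (sq z h)
  refine (fun ⟨K, _, _, h3, h4, _⟩ => ⟨K, inferInstance, inferInstance, h3, h4⟩)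
    (fp (MonoidHom.id G) ψ s (fun p hp h => ?_) (fun p q hp hq hn => ?_)
    (fun a b ha _ pa => ?_) (fun a b ha hb pa pb hn => ?_) n)
  · haveI := Fact.mk hp
    obtain ⟨z, hz⟩ := exists_prime_orderOf_dvd_card' p h
    by_cases h1 : ψ z = 1
    · rw [← hz, o2 z h1 (hz.symm ▸ hp)]; exact h2
    · rw [← orderOf_eq_prime (x := ψ z) (p := p) (by rw [← map_pow, ← hz, pow_orderOf_eq_one, map_one]) h1]
      exact orderOf_dvd_natCard _
  · rintro ⟨z, hz⟩
    by_cases h2 : ψ z ^ p = 1
    · exact key p q hp hq hn z hz h2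
    by_cases h3 : ψ z ^ q = 1
    · exact (key q p hq hp hn.symm z (hz.trans (mul_comm _ _)) h3).symm
    exact ⟨_, ord_pq hp hq (by rw [← map_pow, ← hz, pow_orderOf_eq_one, map_one]) h2 h3⟩
  · have : a = 1 := ha
    rw [this, orderOf_one] at pa
    exact absurd pa Nat.not_prime_one
  · exact absurd ((o2 a ha pa).trans (o2 b hb pb).symm) hn

/-- the coinduced module -/
def coW {Y Λ V : Type*} [Group Y] [Group Λ] [Group V] (β : Λ →* Y) (α : Λ →* MulAut V) : Subgroup (Y → V) where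
  carrier := {f | ∀ l y, f (β l * y) = α l (f y)}
  one_mem' := fun l y => by simp
  mul_mem' := fun {f g} hf hg l y => by rw [Pi.mul_apply, Pi.mul_apply, hf, hg, map_mul]
  inv_mem' := fun {f} hf l y => by rw [Pi.inv_apply, Pi.inv_apply, hf, map_inv]

/-- right translation -/
def coT {Y Λ V : Type*} [Group Y] [Group Λ] [Group V] (β : Λ →* Y) (α : Λ →* MulAut V) : Y →* MulAut (coW β α) where
  toFun g :=
    { toFun := fun f => ⟨fun y => f.1 (y * g), fun l y => by simp only [mul_assoc]; exact f.2 l _⟩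
      invFun := fun f => ⟨fun y => f.1 (y * g⁻¹), fun l y => by simp only [mul_assoc]; exact f.2 l _⟩
      left_inv := fun f => Subtype.ext (funext fun y => by simp)
      right_inv := fun f => Subtype.ext (funext fun y => by simp)
      map_mul' := fun _ _ => rfl }
  map_one' := MulEquiv.ext fun f => Subtype.ext (funext fun y => by simp)
  map_mul' a b := MulEquiv.ext fun f => Subtype.ext (funext fun y => by simp [mul_assoc])

theorem coind {G Y V : Type u} {Λ : Type*} [Group G] [Group Y] [Group Λ] [Group V] [Finite G] [Finite V]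
    (π : G →* Y) (hπ : Function.Surjective π) (β : Λ →* Y) (α : Λ →* MulAut V) (hk : ∀ z, β z = 1 → α z = 1)
    (sq : ∀ v : V, v ^ 2 = 1) (cm : ∀ v w : V, v * w = w * v) (nt : ∃ v : V, v ≠ 1) (h2 : 2 ∣ Nat.card G)
    (hf : ∀ g : G, ∀ p : ℕ, p.Prime → p ≠ 2 → orderOf g = p → ¬ Ad G p 2 →
      ∃ l, β l = π g ∧ ∀ v, α l v = v → v = 1) :
    ∃ (K : Type u) (_ : Group K) (_ : Finite K), SG G K ∧ CN K := by
  classical
  haveI : Finite Y := Finite.of_surjective π hπ
  let τ := (coT β α).comp π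
  haveI : Finite (coW β α ⋊[τ] G) := Finite.of_equiv _ SemidirectProduct.equivProd.symm
  have hk' : ∀ a b, β a = β b → α a = α b := fun a b h => by
    have := hk (a⁻¹ * b) (by rw [map_mul, map_inv, h, inv_mul_cancel])
    rwa [map_mul, map_inv, inv_mul_eq_one] at this
  have hl : ∀ y : coW β α ⋊[τ] G, SemidirectProduct.rightHom y = 1 → y = SemidirectProduct.inl y.left :=
    fun y hy => SemidirectProduct.ext rfl hy
  refine ext2 (SemidirectProduct.rightHom : coW β α ⋊[τ] G →* G) SemidirectProduct.rightHom_surjective h2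
    (fun y hy => ?_) ?_ fun x y hy h1 c p hp hp2 ho => ?_
  · rw [hl y hy, ← map_pow]
    have : y.left ^ 2 = 1 := Subtype.ext (funext fun a => sq _)
    rw [this, map_one]
  · obtain ⟨v, hv⟩ := nt
    let f : coW β α := ⟨fun y => if h : ∃ l, β l = y then α h.choose v else 1, fun l y => by
      by_cases h : ∃ l, β l = y
      · have h' : ∃ m, β m = β l * y := ⟨l * h.choose, by rw [map_mul, h.choose_spec]⟩
        simp only [dif_pos h, dif_pos h']
        rw [hk' h'.choose (l * h.choose) (by rw [h'.choose_spec, map_mul, h.choose_spec]), map_mul]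
        rfl
      · have h' : ¬ ∃ m, β m = β l * y := fun ⟨m, hm⟩ => h ⟨l⁻¹ * m, by rw [map_mul, map_inv, hm, inv_mul_cancel_left]⟩
        simp only [dif_neg h, dif_neg h', map_one]⟩
    refine ⟨SemidirectProduct.inl f, fun h => hv ?_, rfl⟩
    have h1 : f = 1 := SemidirectProduct.inl_injective (h.trans (map_one _).symm)
    have h3 : f.1 1 = 1 := by rw [h1]; rfl
    have h' : ∃ l, β l = 1 := ⟨1, map_one _⟩
    simp only [f, dif_pos h', hk _ h'.choose_spec] at h3
    exact h3
  · by_contra hn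
    apply h1
    have hy' : y.right = 1 := hy
    have c1 := congrArg SemidirectProduct.left c
    rw [SemidirectProduct.mul_left, SemidirectProduct.mul_left, hy', map_one] at c1
    have c2 : y.left * x.left = x.left * y.left := Subtype.ext (funext fun a => cm _ _)
    have c3 : τ x.right y.left = y.left := mul_left_cancel (c1.trans c2)
    refine SemidirectProduct.ext (Subtype.ext (funext fun a => ?_)) hy'
    obtain ⟨h, rfl⟩ := hπ a
    obtain ⟨l, h4, h5⟩ := hf (h * x.right * h⁻¹) p hp hp2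
      (by rw [← ho]; exact (MulAut.conj h).orderOf_eq x.right) hn
    refine h5 _ ?_
    have c4 : y.left.1 (π h * π x.right) = y.left.1 (π h) := congrFun (congrArg Subtype.val c3) (π h)
    rw [← y.left.2 l, h4, ← c4]
    simp

end Cfsg.Agent.H90.Gk
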