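import Cfsg.Agent.H90.ML1
import Cfsg.Agent.H27.SkHInst

/-! McLaughlin's theorem over a prime field of odd order: one component. -/

set_option autoImplicit false

namespace Cfsg.Agent.H90
open Relation Module H27

variable {F V : Type*} [Field F] [AddCommGroup V] [Module F V]

/-- elements stabilising `A` and acting trivially on `A` modulo `C` -/
def Rel (A C : Submodule F V) : Subgroup (V ≃ₗ[F] V) where
  carrier := {g | g ∈ stab A ∧ ∀ x ∈ A, g x - x ∈ C}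
  mul_mem' {a b} ha hb := ⟨mul_mem ha.1 hb.1, fun x hx => by
    simpa using C.add_mem (ha.2 _ (stab_apply hb.1 hx)) (hb.2 x hx)⟩
  one_mem' := ⟨one_mem _, fun x _ => by simp⟩
  inv_mem' {a} ha := ⟨inv_mem ha.1, fun x hx => by
    have := C.neg_mem (ha.2 _ (stab_apply (inv_mem ha.1) hx))
    rwa [le_apply_inv, neg_sub] at this⟩

theorem mem_rel [FiniteDimensional F V] {A C : Submodule F V} {g : V ≃ₗ[F] V} (h : C ≤ A) (h1 : ∀ x ∈ A, g x - x ∈ C) :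
    g ∈ Rel A C := ⟨mem_stab_of_mapsTo fun x hx => by simpa using A.add_mem (h (h1 x hx)) hx, h1⟩

theorem rel_fix {A : Submodule F V} {g : V ≃ₗ[F] V} (h : g ∈ Rel A ⊥) {x : V} (hx : x ∈ A) : g x = x :=
  sub_eq_zero.1 (h.2 x hx)

theorem rel_conj {A C : Submodule F V} {g h : V ≃ₗ[F] V} (hg : g ∈ Rel A C) (hA : h ∈ stab A) (hC : h ∈ stab C) :
    h * g * h⁻¹ ∈ Rel A C := ⟨mul_mem (mul_mem hA hg.1) (inv_mem hA), fun x hx => by
  have := stab_apply hC (hg.2 _ (stab_apply (inv_mem hA) hx))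
  rwa [map_sub, le_apply_inv] at this⟩

theorem rel_le_stab [FiniteDimensional F V] {A : Submodule F V} : Rel ⊤ A ≤ stab A := fun _ hg =>
  (mem_rel le_rfl fun x _ => hg.2 x trivial).1

theorem isPGroup_flag {p : ℕ} [hp : Fact p.Prime] (hp2 : 2 < p) (hV : ∀ x : V, p • x = 0) (A C : Submodule F V) :
    IsPGroup p (Rel ⊤ A ⊓ Rel A C ⊓ Rel C ⊥ : Subgroup (V ≃ₗ[F] V)) := by
  rintro ⟨g, ⟨h1, h2⟩, h3⟩
  refine ⟨1, Subtype.ext (LinearEquiv.ext fun x => ?_)⟩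
  have e := rel_fix h3 (h2.2 _ (h1.2 x trivial))
  have : ∀ n : ℕ, (g ^ n) x = x + n • (g x - x) + n.choose 2 • (g (g x - x) - (g x - x)) := fun n => by
    induction n with
    | zero => simp
    | succ n ih =>
      rw [pow_succ', le_mul_apply, ih, map_add, map_add, map_nsmul, map_nsmul, e, Nat.choose_succ_succ' n 1,
        Nat.choose_one_right]
      module
  obtain ⟨k, hk⟩ := hp.out.dvd_choose_self two_ne_zero hp2
  have := this p
  rw [hk, mul_smul, hV, hV, add_zero, add_zero] at this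
  simpa using this

/-- restriction to an invariant subspace -/
def resW (W : Submodule F V) : stab W →* (W ≃ₗ[F] W) where
  toFun g := LinearEquiv.ofSubmodules g.1 W W (mem_stab_iff_map.1 g.2)
  map_one' := rfl
  map_mul' _ _ := rfl

local notation "Ev" => Module.Dual.eval F V

def WW (Γ : V → Dual F V → Prop) : Submodule F V := Submodule.span F {v | Cen Γ v}
def PP (Γ : V → Dual F V → Prop) : Submodule F (Dual F V) := Submodule.span F {φ | Cen (fun φ v => Γ v φ) φ}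
def KK (Γ : V → Dual F V → Prop) : Subgroup (V ≃ₗ[F] V) :=
  Subgroup.closure {g | ∃ q, ND Γ q ∧ ∀ x, g x = x + q.2 x • q.1}

variable {Γ : V → Dual F V → Prop} {v w : V} {φ ψ : Dual F V} {q : V × Dual F V}

theorem ND.mem_W (h : ND Γ q) : q.1 ∈ WW Γ := Submodule.subset_span ⟨q.2, h⟩
theorem ND.mem_P (h : ND Γ q) : q.2 ∈ PP Γ := Submodule.subset_span ⟨q.1, h.1, h.2.2, h.2.1⟩

theorem mem_ann {x : V} : x ∈ (PP Γ).dualCoannihilator ↔ ∀ q, ND Γ q → q.2 x = 0 := by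
  rw [Submodule.mem_dualCoannihilator]
  refine ⟨fun h q hq => h _ hq.mem_P, fun h φ hφ => ?_⟩
  have : PP Γ ≤ LinearMap.ker (Ev x) := Submodule.span_le.2 fun φ ⟨v, h1⟩ => h (v, φ) ⟨h1.1, h1.2.2, h1.2.1⟩
  exact this hφ

theorem TS.t1 (h : TS Ev Γ) (h1 : Γ v φ) : T1 (KK Γ) v φ := by
  by_cases hv : v = 0
  · exact hv ▸ t1_zero_left φ
  by_cases hφ : φ = 0
  · exact hφ ▸ t1_zero_right v
  exact t1_of_tv (h.zero h1) (Subgroup.subset_closure ⟨(v, φ), ⟨h1, hv, hφ⟩, tv_apply _ _ _⟩)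

variable [FiniteDimensional F V]

theorem KK_le_W : KK Γ ≤ Rel ⊤ (WW Γ) := (Subgroup.closure_le _).2 fun g ⟨q, hq, e⟩ =>
  mem_rel le_top fun x _ => by simpa [e] using Submodule.smul_mem _ _ hq.mem_W

theorem KK_le_ann : KK Γ ≤ Rel (PP Γ).dualCoannihilator ⊥ := (Subgroup.closure_le _).2 fun g ⟨q, hq, e⟩ =>
  mem_rel bot_le fun x hx => by simp [e, mem_ann.1 hx q hq]

noncomputable def rhoK (Γ : V → Dual F V → Prop) : KK Γ →* (WW Γ ≃ₗ[F] WW Γ) :=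
  (resW (WW Γ)).comp (Subgroup.inclusion (KK_le_W.trans rel_le_stab))

theorem rhoK_apply (g : KK Γ) (x : WW Γ) : (rhoK Γ g x : V) = (g : V ≃ₗ[F] V) x := rfl

theorem TS.t1_range (h : TS Ev Γ) (v : WW Γ) (h1 : Γ v φ) : T1 (rhoK Γ).range v (φ ∘ₗ (WW Γ).subtype) := by
  obtain ⟨g, hg, e⟩ := h.t1 h1
  exact ⟨_, ⟨⟨g, hg⟩, rfl⟩, fun x => Subtype.ext (e x)⟩

theorem range_le {L : Subgroup (WW Γ ≃ₗ[F] WW Γ)} (h : ∀ q (hq : ND Γ q) (g : WW Γ ≃ₗ[F] WW Γ),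
    (∀ x, g x = x + q.2 x • (⟨q.1, hq.mem_W⟩ : WW Γ)) → g ∈ L) : (rhoK Γ).range ≤ L := by
  rintro _ ⟨⟨g, hg⟩, rfl⟩
  induction hg using Subgroup.closure_induction with
  | mem g hg => obtain ⟨q, hq, e⟩ := hg; exact h q hq _ fun x => Subtype.ext (e x)
  | one => exact L.one_mem
  | mul a b ha hb h1 h2 => exact L.mul_mem h1 h2
  | inv a ha h1 => exact (map_inv (rhoK Γ) ⟨a, ha⟩).symm ▸ L.inv_mem h1

theorem isCompl_of (h1 : ∀ w ∈ WW Γ, (∀ q, ND Γ q → q.2 w = 0) → w = 0)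
    (h2 : ∀ φ ∈ PP Γ, (∀ w ∈ WW Γ, φ w = 0) → φ = 0) : IsCompl (WW Γ) (PP Γ).dualCoannihilator := by
  have d : Disjoint (WW Γ) (PP Γ).dualCoannihilator := Submodule.disjoint_def.2 fun x hx hx' => h1 x hx (mem_ann.1 hx')
  refine ⟨d, codisjoint_iff.2 (Submodule.eq_top_of_disjoint _ _ ?_ d)⟩
  rw [← Subspace.finrank_add_finrank_dualCoannihilator_eq (PP Γ), add_le_add_iff_right, ← Subspace.dual_finrank_eq]
  exact LinearMap.finrank_le_finrank_of_injective (f := (WW Γ).dualRestrict ∘ₗ (PP Γ).subtype)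
    ((injective_iff_map_eq_zero _).2 fun a ha => Subtype.ext (h2 a a.2 fun w hw => DFunLike.congr_fun ha ⟨w, hw⟩))

/-- the conclusion for one component -/
def Good (Γ : V → Dual F V → Prop) : Prop := IsCompl (WW Γ) (PP Γ).dualCoannihilator ∧
  ((rhoK Γ).range = SLV F (WW Γ) ∨ ∃ B : LinearMap.BilinForm F (WW Γ), B.IsAlt ∧ B.Nondegenerate ∧ (rhoK Γ).range = Iso B)

theorem TS.good_lin (h : TS Ev Γ) (hc : TConn Ev Γ) (h2 : (2 : F) ≠ 0) {p : V × Dual F V} (hp : ND Γ p) (hq : ND Γ q)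
    (e1 : p.2 q.1 ≠ 0) (e2 : q.2 p.1 = 0) : Good Γ := by
  have h3 := fun u hu => h.two_ax hc hp hq e1 e2 (u := u) hu
  refine ⟨isCompl_of (fun w hw hn => (h.cen_of_span hc h2 h3 hw).resolve_right fun ⟨φ, h1⟩ => ?_)
    fun φ hφ hn => (h.flip.cen_of_span hc.flip h2 (fun u hu => h.flip.two_ax hc.flip (p := q.swap) (q := p.swap)
      ⟨hq.1, hq.2.2, hq.2.1⟩ ⟨hp.1, hp.2.2, hp.2.1⟩ e1 e2 hu) hφ).resolve_right fun ⟨v, h1⟩ => ?_,
    Or.inl (le_antisymm (range_le fun r hr g e => ?_) (SLV_le_of_Aset (eq_top_iff.2 fun v _ l hl => ?_)))⟩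
  · obtain ⟨x, ξ, h4, e3, e4⟩ := h.opp h1.1 h1.2.1 h1.2.2
    exact e4 (hn (x, ξ) ⟨h4, ne_l e3, ne_r e4⟩)
  · obtain ⟨x, ξ, h4, e3, e4⟩ := h.opp h1.1 h1.2.2 h1.2.1
    exact e3 (hn x (ND.mem_W (q := (x, ξ)) ⟨h4, ne_l e3, ne_r e4⟩))
  · exact Has.mem (t1_of_tv (φ := r.2 ∘ₗ (WW Γ).subtype) (v := ⟨r.1, hr.mem_W⟩) (show r.2 r.1 = 0 from h.zero hr.1)
      (tv_mem_SLV _ _ _)) e
  rcases h.cen_of_span hc h2 h3 v.2 with e | hv
  · exact (show v = 0 from Subtype.ext e) ▸ t1_zero_left l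
  have : l ∈ (h.ax v).map (WW Γ).dualRestrict := by
    rw [← Subspace.dualCoannihilator_dualAnnihilator_eq (W := (h.ax v).map (WW Γ).dualRestrict),
      Submodule.mem_dualAnnihilator]
    intro w hw
    rw [Submodule.mem_dualCoannihilator] at hw
    rcases h.cen_of_span hc h2 h3 w.2 with e | hw'
    · rw [show w = 0 from Subtype.ext e, map_zero]
    obtain ⟨c, e⟩ := h.prop hc h2 h3 hv hw' fun φ hφ => hw _ ⟨φ, hφ, rfl⟩
    rw [show w = c • v from Subtype.ext e, map_smul, hl, smul_zero]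
  obtain ⟨φ, hφ, rfl⟩ := this
  exact h.t1_range v hφ

theorem TS.good_alt [Finite F] [Finite V] (h : TS Ev Γ) (hc : TConn Ev Γ) (h2 : (2 : F) ≠ 0) {p : V × Dual F V}
    (hp : ND Γ p) (hA : ∀ p q, ND Γ p → ND Γ q → p.2 q.1 ≠ 0 → q.2 p.1 ≠ 0)
    (hO : ∀ g ∈ KK Γ, g ∈ Rel (WW Γ) (WW Γ ⊓ (PP Γ).dualCoannihilator) → g = 1) : Good Γ := by
  have : Finite (Dual F V) := DFunLike.finite _
  obtain ⟨Θ, alt, nrm, sp, all⟩ := h.exists_theta hc h2 hA hp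
  simp only [Dual.eval_apply] at alt all
  have m1 : ∀ r ∈ Θ, r.1 ∈ WW Γ := (sp.trans (Submodule.span_le.2 fun q hq => ND.mem_W hq) :
    Θ ≤ (WW Γ).comap (LinearMap.fst F V (Dual F V)))
  have m2 : ∀ r ∈ Θ, r.2 ∈ PP Γ := (sp.trans (Submodule.span_le.2 fun q hq => ND.mem_P hq) :
    Θ ≤ (PP Γ).comap (LinearMap.snd F V (Dual F V)))
  have s1 : WW Γ ≤ Θ.map (LinearMap.fst F V (Dual F V)) := Submodule.span_le.2 fun v ⟨φ, h1⟩ =>
    let ⟨_, _, h3⟩ := nrm _ h1; ⟨_, h3, rfl⟩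
  have s2 : PP Γ ≤ Θ.map (LinearMap.snd F V (Dual F V)) := Submodule.span_le.2 fun φ ⟨v, h1⟩ => by
    obtain ⟨c, hc, h3⟩ := nrm (v, φ) ⟨h1.1, h1.2.2, h1.2.1⟩
    exact ⟨_, Θ.smul_mem c⁻¹ h3, by simp [smul_smul, hc]⟩
  have rad : ∀ r ∈ Θ, (∀ q ∈ Θ, q.2 r.1 = 0) → r = 0 := fun r hr hn => by
    obtain ⟨c, hc, h3⟩ := nrm p hp
    obtain ⟨x, ξ, h4, e3, e4⟩ := h.opp hp.1 hp.2.1 hp.2.2
    have h5 : ND Γ (x, ξ) := ⟨h4, ne_l e3, ne_r e4⟩
    obtain ⟨d, hd, h6⟩ := nrm _ h5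
    obtain ⟨g1, hg1, a1⟩ := h.t1 (h.smr c hp.1)
    obtain ⟨g2, hg2, a2⟩ := h.t1 (all _ (Θ.add_mem h3 hr) ⟨_, h6, by
      have := hn _ h6; simp only [Prod.fst_add, map_add, this]; simpa [hd] using e4⟩)
    have r1 : r.1 ∈ (PP Γ).dualCoannihilator := mem_ann.2 fun q hq => by
      obtain ⟨c, hc, h7⟩ := nrm q hq
      simpa [hc] using hn _ h7
    have r2 : ∀ x ∈ WW Γ, r.2 x = 0 := fun x hx => by
      obtain ⟨q, hq, rfl⟩ := s1 hx
      rw [LinearMap.fst_apply, alt q hq r hr, hn q hq, neg_zero]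
    have := hO _ (mul_mem (inv_mem hg1) hg2) (mem_rel inf_le_left fun x hx => by
      have : g2 x = g1 (x + (c • p.2) x • r.1) := by
        rw [map_add, map_smul, rel_fix (KK_le_ann hg1) r1, a1, a2]; simp [r2 x hx, add_assoc]
      rw [le_mul_apply, this, le_inv_apply, add_sub_cancel_left]
      exact Submodule.smul_mem _ _ ⟨m1 r hr, r1⟩)
    rw [inv_mul_eq_one] at this
    have e5 : r.1 = 0 := by
      have := (a1 x).symm.trans (this ▸ a2 x)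
      simpa [r2 x h5.mem_W, hc, show p.2 x ≠ 0 from e3] using this
    refine Prod.ext e5 (LinearMap.ext fun y => ?_)
    have := (a1 y).symm.trans (this ▸ a2 y)
    simpa [e5, add_smul, hp.2.1] using this
  refine ⟨isCompl_of (fun w hw hn => ?_) fun φ hφ hn => ?_, Or.inr ?_⟩
  · obtain ⟨r, hr, rfl⟩ := s1 hw
    rw [rad r hr fun q hq => (Submodule.mem_dualCoannihilator _).1 (mem_ann.2 hn) _ (m2 q hq), map_zero]
  · obtain ⟨r, hr, rfl⟩ := s2 hφ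
    rw [rad r hr fun q hq => by rw [alt r hr q hq, neg_eq_zero]; exact hn _ (m1 q hq), map_zero]
  obtain ⟨s, hs⟩ := (LinearMap.fst F V (Dual F V) ∘ₗ Θ.subtype).exists_leftInverse_of_injective (LinearMap.ker_eq_bot'.2
    fun (r : Θ) e => Subtype.ext (rad r.1 r.2 fun q _ => by rw [show r.1.1 = 0 from e, map_zero]))
  let θ : V →ₗ[F] Dual F V := LinearMap.snd F V (Dual F V) ∘ₗ Θ.subtype ∘ₗ s
  have t1 : ∀ r ∈ Θ, θ r.1 = r.2 := fun r hr =>
    (congrArg (fun t : Θ => t.1.2) (DFunLike.congr_fun hs (⟨r, hr⟩ : Θ)) :)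
  have t2 : ∀ w : WW Γ, (w.1, θ w) ∈ Θ := fun w => by
    obtain ⟨r, hr, e⟩ := s1 w.2
    rw [← e, LinearMap.fst_apply, t1 r hr]; exact hr
  let B : LinearMap.BilinForm F (WW Γ) := LinearMap.compl₁₂ θ (WW Γ).subtype (WW Γ).subtype
  have hB : ∀ a b, B a b = θ a b := fun _ _ => rfl
  have sk : ∀ a b, B a b = -B b a := fun a b => alt _ (t2 b) _ (t2 a)
  have a0 : ∀ a, B a a = 0 := fun a => (mul_eq_zero.1 (by linear_combination sk a a)).resolve_left h2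
  have nd : ∀ a, (∀ b, B a b = 0) → a = 0 := fun a ha => Subtype.ext (congrArg Prod.fst (rad _ (t2 a) fun q hq => by
    rw [alt _ (t2 a) q hq, neg_eq_zero]; exact ha ⟨_, m1 q hq⟩))
  refine ⟨B, a0, ⟨nd, fun a ha => nd a fun b => by rw [sk, ha, neg_zero]⟩,
    le_antisymm (range_le fun r hr g e x y => ?_) (iso_le_of_alt a0 nd _ fun v c => ?_)⟩
  · obtain ⟨c, hc, h3⟩ := nrm r hr
    have e1 : ∀ x : WW Γ, r.2 x = c⁻¹ * B ⟨r.1, hr.mem_W⟩ x := fun x => by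
      rw [hB, t1 _ h3]; simp [hc]
    simp only [e, e1, map_add, map_smul, LinearMap.add_apply, LinearMap.smul_apply, a0, smul_eq_mul,
      sk x ⟨r.1, hr.mem_W⟩]
    ring
  · by_cases hv : v = 0
    · exact hv ▸ t1_zero_left _
    obtain ⟨b, hb⟩ := not_forall.1 (mt (nd v) hv)
    exact h.t1_range v (h.smr c (all _ (t2 v) ⟨_, t2 b, by rwa [← hB, sk, neg_ne_zero]⟩))

end Cfsg.Agent.H90
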