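import Cfsg.Agent.H90.ML2

/-! McLaughlin's theorem over a prime field of odd order: the components. -/

set_option autoImplicit false

namespace Cfsg.Agent.H90
open Relation Module H27

theorem exists_reps {α : Type*} [Finite α] {r : α → α → Prop} (h1 : ∀ a, r a a) (h2 : ∀ {a b}, r a b → r b a)
    (h3 : ∀ {a b c}, r a b → r b c → r a c) (P : α → Prop) :
    ∃ (n : ℕ) (f : Fin n → α), (∀ j, P (f j)) ∧ (∀ j j', j ≠ j' → ¬ r (f j) (f j')) ∧ ∀ a, P a → ∃ j, r (f j) a := by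
  let s : Setoid {a // P a} := ⟨fun a b => r a b, fun a => h1 a, h2, h3⟩
  obtain ⟨n, ⟨e⟩⟩ := Finite.exists_equiv_fin (Quotient s)
  refine ⟨n, fun j => (e.symm j).out.1, fun j => (e.symm j).out.2, fun j j' hn hr => hn (e.symm.injective ?_),
    fun a ha => ⟨e (Quotient.mk s ⟨a, ha⟩), ?_⟩⟩
  · exact Quotient.out_equiv_out.1 hr
  · simp only [e.symm_apply_apply]; exact Quotient.mk_out (s := s) ⟨a, ha⟩

variable {F V : Type*} [Field F] [AddCommGroup V] [Module F V]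

local notation "Ev" => Module.Dual.eval F V

theorem fix_stab [FiniteDimensional F V] {A C : Submodule F V} {g : V ≃ₗ[F] V} (h : g ∈ Rel A ⊥) (hC : C ≤ A) :
    g ∈ stab C := mem_stab_of_mapsTo fun x hx => by rwa [rel_fix h (hC hx)]

theorem ts_of [Finite V] {p : ℕ} [Fact p.Prime] (hp2 : 2 < p) (hV : ∀ x : V, p • x = 0) (hF : ∀ a : F, ∃ n : ℕ, a = n)
    (H : Subgroup (V ≃ₗ[F] V)) (hO : pCore p H = ⊥) : TS Ev fun v φ => φ v = 0 ∧ T1 H v φ := by
  have sml : ∀ {v : V} {φ : Dual F V} (a : F), φ v = 0 → T1 H v φ → T1 H (a • v) φ := fun {v φ} a e h => by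
    obtain ⟨n, rfl⟩ := hF a
    induction n with
    | zero => simpa using t1_zero_left φ
    | succ n ih => simpa [add_smul] using ih.add_left h e
  refine ⟨fun h => h.1, fun φ => ⟨map_zero _, t1_zero_left φ⟩, fun v => ⟨rfl, t1_zero_right v⟩,
    fun a h => ⟨by simp [h.1], sml a h.1 h.2⟩, fun a h => ⟨by simp [h.1], t1_smul.1 (sml a h.1 h.2)⟩,
    fun h h' => ⟨by simp [h.1, h'.1], h.2.add_left h'.2 h'.1⟩, fun h h' => ⟨by simp [h.1, h'.1], h.2.add_right h'.2 h.1⟩,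
    fun {v φ w ψ} h h' => ⟨by simp [h.1, h'.1, mul_comm], ?_⟩, fun {v φ} h hv hφ => ?_⟩
  · obtain ⟨g, hg, e⟩ := h'.2
    have := T1.of_conj (v := v) (φ := φ - φ w • ψ) hg (by
      convert h.2 using 1; ext x; simp [e, h'.1, mul_comm])
    rwa [e] at this
  by_contra hn
  let S : Set H := {g | ∃ (v : V) (φ : Dual F V), φ v = 0 ∧ (∀ x, g.1 x = x + φ x • v) ∧
    ∀ w ψ, ψ w = 0 → T1 H w ψ → φ w = 0 ∨ ψ v = 0}
  have : Finite (V ≃ₗ[F] V) := DFunLike.finite _
  have key : ∀ a b : H, ∀ (v w : V) (φ ψ : Dual F V), φ v = 0 → ψ w = 0 → ψ v = 0 → (∀ x, a.1 x = x + φ x • v) →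
      (∀ x, b.1 x = x + ψ x • w) → IsPGroup p (Subgroup.closure {a, b}) := fun a b v w φ ψ e1 e2 e3 ha hb => by
    have : Module.Finite F V := .of_finite
    have hv : v ∈ Submodule.span F {v, w} := Submodule.subset_span (by simp)
    have hw : w ∈ Submodule.span F {v, w} := Submodule.subset_span (by simp)
    have hle : Submodule.span F {v} ≤ Submodule.span F {v, w} := Submodule.span_mono (by simp)
    have k : ∀ x ∈ Submodule.span F {v, w}, ψ x = 0 := (Submodule.span_le.2 (by rintro _ (rfl | rfl) <;> assumption) :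
      Submodule.span F {v, w} ≤ LinearMap.ker ψ)
    refine ((isPGroup_flag hp2 hV (.span F {v, w}) (.span F {v})).comap_subtype (K := H)).to_le
      ((Subgroup.closure_le _).2 ?_)
    rintro _ (rfl | rfl)
    · refine ⟨⟨mem_rel le_top fun x _ => by simpa [ha] using Submodule.smul_mem _ _ hv, mem_rel hle fun x _ => by
        simpa [ha] using Submodule.smul_mem _ _ (Submodule.mem_span_singleton_self v)⟩, mem_rel bot_le fun x hx => ?_⟩
      obtain ⟨c, rfl⟩ := Submodule.mem_span_singleton.1 hx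
      simp [ha, e1]
    · exact ⟨⟨mem_rel le_top fun x _ => by simpa [hb] using Submodule.smul_mem _ _ hw, mem_rel hle fun x hx => by
        simp [hb, k x hx]⟩, mem_rel bot_le fun x hx => by simp [hb, k x (hle hx)]⟩
  have := H22.le_pCore inferInstance (H8.baer_suzuki_closure (p := p) S (by
    rintro g a ⟨v, φ, e1, e2, e3⟩
    refine ⟨g.1 v, φ ∘ₗ ((g.1⁻¹ : V ≃ₗ[F] V) : V →ₗ[F] V), by simpa using e1, fun x => ?_, fun w ψ e4 h => ?_⟩
    · simp [le_mul_apply, e2]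
    · exact e3 _ _ (by simpa using e4) (h.conj' g.2)) (by
    rintro a ⟨v, φ, e1, e2, e3⟩ b ⟨w, ψ, e4, e5, -⟩
    rcases e3 w ψ e4 ⟨_, b.2, e5⟩ with e | e
    · exact Set.pair_comm a b ▸ key b a w v ψ φ e4 e1 e e5 e2
    · exact key a b v w φ ψ e1 e4 e e2 e5))
  obtain ⟨g, hg, e⟩ := h.2
  have h1 := this (Subgroup.subset_normalClosure (show (⟨g, hg⟩ : H) ∈ S from ⟨v, φ, h.1, e, fun w ψ e1 h1 => by
    by_contra h2
    exact hn ⟨w, ψ, ⟨e1, h1⟩, not_or.1 h2⟩⟩))
  rw [hO, Subgroup.mem_bot, Subtype.ext_iff] at h1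
  refine hφ (LinearMap.ext fun x => ?_)
  simpa [show g = 1 from h1, hv] using e x

theorem exists_tv {p : ℕ} [hp : Fact p.Prime] [CharP F p] [FiniteDimensional F V] {t : V ≃ₗ[F] V} (h1 : orderOf t = p)
    (h2 : finrank F (LinearMap.ker ((t : V →ₗ[F] V) - LinearMap.id)) + 1 = finrank F V) :
    ∃ (v : V) (φ : Dual F V), φ v = 0 ∧ v ≠ 0 ∧ φ ≠ 0 ∧ ∀ x, t x = x + φ x • v := by
  have h3 := LinearMap.finrank_range_add_finrank_ker ((t : V →ₗ[F] V) - LinearMap.id)
  obtain ⟨⟨v, hv⟩, h4, h5⟩ := finrank_eq_one_iff'.1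
    (by omega : finrank F (LinearMap.range ((t : V →ₗ[F] V) - LinearMap.id)) = 1)
  have hv0 : v ≠ 0 := fun e => h4 (Subtype.ext e)
  obtain ⟨l, hl⟩ : ∃ l : Dual F V, l v = 1 := Module.Projective.exists_dual_eq_one F hv0
  let φ := l ∘ₗ ((t : V →ₗ[F] V) - LinearMap.id)
  have e : ∀ x, t x = x + φ x • v := fun x => by
    obtain ⟨c, hc⟩ := h5 ⟨_, x, rfl⟩
    have hc : c • v = t x - x := congrArg Subtype.val hc
    have : φ x = c := by simp [φ, ← hc, hl]
    rw [this, hc, add_sub_cancel]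
  have e2 : ∀ n : ℕ, (t ^ n) v = (1 + φ v) ^ n • v := fun n => by
    induction n with
    | zero => simp
    | succ n ih => rw [pow_succ', le_mul_apply, ih, map_smul, e, pow_succ]; module
  refine ⟨v, φ, ?_, hv0, fun e1 => hp.out.one_lt.ne' (h1 ▸ orderOf_eq_one_iff.2 (LinearEquiv.ext fun x => ?_)), e⟩
  · have := e2 p
    rw [← h1, pow_orderOf_eq_one, h1, add_pow_char, one_pow, add_smul, one_smul] at this
    simpa [hv0, hp.out.ne_zero] using this
  · simp [e, e1]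

end Cfsg.Agent.H90
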